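import Groth.Agent.CalgB.QuasiRegular
import Groth.Agent.CalgB.H1OfRegular
import Mathlib.RingTheory.MvPolynomial.Homogeneous

/-!
# Intersections with powers of an ideal generated by a sequence regular modulo `J`

If `f₁, …, f_r` is weakly regular on `A ⧸ J` and `R = (f₁, …, f_r)`, then `J ∩ Rⁿ ≤ J Rⁿ + J ∩ Rⁿ⁺¹`.
-/

set_option autoImplicit false

universe u

namespace Groth.Agent.Ega4late.H523.InfPow

open MvPolynomial

/-- weakly regular on `A ⧸ J` implies that the images in the ring `A ⧸ J` are quasi-regular. -/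
theorem isQuasiRegular_mk {A : Type u} [CommRing A] (J : Ideal A) {r : ℕ} (f : Fin r → A)
    (hf : RingTheory.Sequence.IsWeaklyRegular (A ⧸ J) (List.ofFn f)) :
    CAlgX.IsQuasiRegular (fun i => Ideal.Quotient.mk J (f i)) := by
  apply CalgB.QuasiRegular.isQuasiRegular_of_isH1Regular
  apply CalgB.H1OfRegular.isH1Regular_of_isWeaklyRegular
  have h : List.ofFn (fun i => Ideal.Quotient.mk J (f i)) =
      (List.ofFn f).map (algebraMap A (A ⧸ J)) := by
    rw [List.map_ofFn]; rfl
  rw [h, RingTheory.Sequence.isWeaklyRegular_map_algebraMap_iff]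
  exact hf

/-- a monomial value of degree `n` lies in the `n`-th power -/
theorem prod_mem_pow {A : Type u} [CommRing A] {r : ℕ} (f : Fin r → A) (d : Fin r →₀ ℕ) :
    (d.prod fun i k => f i ^ k) ∈ Ideal.span (Set.range f) ^ d.degree := by
  change (d.prod fun i k => f i ^ k) ∈ Ideal.span (Set.range f) ^ (∑ i ∈ d.support, d i)
  rw [Finsupp.prod, ← Finset.prod_pow_eq_pow_sum]
  exact Ideal.prod_mem_prod fun i _ => Ideal.pow_mem_pow (Ideal.subset_span (Set.mem_range_self i)) _

/-- the value at `f` of a homogeneous polynomial of degree `n` with coefficients in `K` lies in `K Rⁿ`. -/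
theorem eval_mem_mul_pow {A : Type u} [CommRing A] {r : ℕ} (f : Fin r → A) (K : Ideal A) (n : ℕ)
    (P : MvPolynomial (Fin r) A) (hP : P.IsHomogeneous n) (hK : ∀ d, P.coeff d ∈ K) :
    eval f P ∈ K * Ideal.span (Set.range f) ^ n := by
  rw [eval_eq]
  refine Ideal.sum_mem _ fun d hd => Ideal.mul_mem_mul (hK d) ?_
  have hdn : d.degree = n :=
    CalgB.QuasiRegular.degree_of_isHomogeneous hP (mem_support_iff.1 hd)
  have := prod_mem_pow f d
  rw [hdn, Finsupp.prod] at this
  exact this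

theorem eval_mk {A : Type u} [CommRing A] (J : Ideal A) {r : ℕ} (f : Fin r → A)
    (P : MvPolynomial (Fin r) A) :
    eval (fun i => Ideal.Quotient.mk J (f i)) (P.map (Ideal.Quotient.mk J)) =
        Ideal.Quotient.mk J (eval f P) := by
  rw [eval_map]
  exact (eval₂_comp (Ideal.Quotient.mk J) f P).symm

theorem mem_sup_of_mk_mem {A : Type u} [CommRing A] (J : Ideal A) {r : ℕ} (f : Fin r → A) (a : A)
    (h : Ideal.Quotient.mk J a ∈ Ideal.span (Set.range fun i => Ideal.Quotient.mk J (f i))) :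
    a ∈ J ⊔ Ideal.span (Set.range f) := by
  have h1 : Ideal.span (Set.range fun i => Ideal.Quotient.mk J (f i)) =
      (Ideal.span (Set.range f)).map (Ideal.Quotient.mk J) := by
    rw [Ideal.map_span, ← Set.range_comp]; rfl
  rw [h1] at h
  have h2 := Ideal.mem_comap.2 h
  rw [Ideal.comap_map_of_surjective' _ Ideal.Quotient.mk_surjective, Ideal.mk_ker, sup_comm] at h2
  exact h2

/-- one step: `J ∩ Rⁿ ≤ J Rⁿ + Rⁿ⁺¹`. -/
theorem inf_pow_le {A : Type u} [CommRing A] (J : Ideal A) {r : ℕ} (f : Fin r → A)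
    (hf : RingTheory.Sequence.IsWeaklyRegular (A ⧸ J) (List.ofFn f)) (n : ℕ) :
    J ⊓ Ideal.span (Set.range f) ^ n ≤
      J * Ideal.span (Set.range f) ^ n ⊔ J ⊓ Ideal.span (Set.range f) ^ (n + 1) := by
  rintro x ⟨hxJ, hx⟩
  obtain ⟨P, hP, hPx⟩ := (Ideal.mem_span_pow_iff_exists_isHomogeneous f x).1 hx
  have hq := isQuasiRegular_mk J f hf n (P.map (Ideal.Quotient.mk J)) (hP.map _) (by
    rw [eval_mk, hPx, Ideal.Quotient.eq_zero_iff_mem.2 hxJ]
    exact Ideal.zero_mem _)
  have hc : ∀ d, P.coeff d ∈ J ⊔ Ideal.span (Set.range f) := by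
    intro d
    have h := hq d
    rw [coeff_map] at h
    exact mem_sup_of_mk_mem J f _ h
  have hmem := eval_mem_mul_pow f _ n P hP hc
  rw [hPx, Ideal.sup_mul, ← pow_succ'] at hmem
  obtain ⟨a, ha, b, hb, rfl⟩ := Submodule.mem_sup.1 hmem
  have haJ : a ∈ J := Ideal.mul_le_left ha
  have hbJ : b ∈ J := (Ideal.add_mem_iff_right J haJ).1 hxJ
  exact Submodule.add_mem_sup ha ⟨hbJ, hb⟩

/-- `J ∩ Rⁿ = J Rⁿ + J ∩ R^N` for `n ≤ N`. -/
theorem inf_pow_eq {A : Type u} [CommRing A] (J : Ideal A) {r : ℕ} (f : Fin r → A)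
    (hf : RingTheory.Sequence.IsWeaklyRegular (A ⧸ J) (List.ofFn f)) (n N : ℕ) (hnN : n ≤ N) :
    J ⊓ Ideal.span (Set.range f) ^ n =
      J * Ideal.span (Set.range f) ^ n ⊔ J ⊓ Ideal.span (Set.range f) ^ N := by
  apply le_antisymm
  · induction N, hnN using Nat.le_induction with
    | base => exact le_sup_right
    | succ N hN ih =>
      refine ih.trans (sup_le le_sup_left ((inf_pow_le J f hf N).trans ?_))
      exact sup_le_sup (Ideal.mul_mono_right (Ideal.pow_le_pow_right hN)) le_rfl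
  · refine sup_le (le_inf Ideal.mul_le_left Ideal.mul_le_right) ?_
    exact inf_le_inf_left _ (Ideal.pow_le_pow_right hnN)

end Groth.Agent.Ega4late.H523.InfPow
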